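import Mathlib
import Cfsg.Prelude.Def_DegreeGraph
import Cfsg.Prelude.Def_Classical
import Cfsg.Agent.Lib.Helper86.SU3Common

/-!
# Project DG33 = S3670: a solvable group of order 6048 with the degree graph of `PSU(3,3)`

Interface file: the Borel datum of `PSU(3,3)`, the functions on the Borel subgroup, and one
`Prop` per package.  Everything is elementary; see the plan notes on topic `S3670`.
-/

set_option autoImplicit false

namespace Cfsg.Agent.Lib.Helper14.DG33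

open Cfsg
open scoped ComplexConjugate

universe u

/-- The raw Borel datum (no cardinalities except `|G|`): `B = P ⋊ ⟨t⟩` a Borel subgroup,
`G = B ⊔ B w B`, `B ∩ w B w⁻¹ = ⟨t⟩`, `t` of order 8 with `w⁻¹ t w = t ^ 5`, `Z = Z(P)` inverted
by `t`, `P / Z` abelian with `⟨t⟩` acting freely on its non-identity elements, `G` perfect. -/
structure RawDatum (G : Type u) [Group G] (B P Z : Subgroup G) (t w : G) : Prop where
  cardG : Nat.card G = 6048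
  ZP : Z ≤ P
  PB : P ≤ B
  tB : t ∈ B
  ordt : orderOf t = 8
  wB : w ∉ B
  bruhat : ∀ g : G, g ∉ B → ∃ b₁ ∈ B, ∃ b₂ ∈ B, g = b₁ * w * b₂
  inter : ∀ b ∈ B, (w⁻¹ * b * w ∈ B ↔ b ∈ Subgroup.zpowers t)
  wt : w⁻¹ * t * w = t ^ 5
  Pnorm : ∀ b ∈ B, ∀ p ∈ P, b * p * b⁻¹ ∈ P
  Znorm : ∀ b ∈ B, ∀ z ∈ Z, b * z * b⁻¹ ∈ Z
  Zcent : ∀ z ∈ Z, ∀ p ∈ P, z * p = p * z
  Pcomm : ∀ p ∈ P, ∀ q ∈ P, p * q * p⁻¹ * q⁻¹ ∈ Z
  Pnc : ∀ p ∈ P, p ∉ Z → ∃ q ∈ P, p * q ≠ q * p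
  Pne : ∃ p ∈ P, p ∉ Z
  tinv : ∀ z ∈ Z, t * z * t⁻¹ = z⁻¹
  tfree : ∀ k : ℕ, 0 < k → k < 8 → ∀ p ∈ P, t ^ k * p * (t ^ k)⁻¹ * p⁻¹ ∈ Z → p ∈ Z
  BPT : ∀ b ∈ B, ∃ k : ℕ, b * t ^ k ∈ P
  PT : ∀ k : ℕ, t ^ k ∈ P → t ^ k = 1
  perfect : commutator G = ⊤

/-- The Borel datum with the cardinalities. -/
structure Datum (G : Type u) [Group G] (B P Z : Subgroup G) (t w : G) : Prop where
  raw : RawDatum G B P Z t w
  cardB : Nat.card B = 216
  cardP : Nat.card P = 27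
  cardZ : Nat.card Z = 3

/-- The `j`-th power of the linear character `lam` of `B`, as a function `B → ℂ`. -/
noncomputable def lamJ {G : Type u} [Group G] {B : Subgroup G} (lam : B →* ℂˣ) (j : ℕ) : B → ℂ :=
  fun b => ((lam b : ℂˣ) : ℂ) ^ j

open Classical in
/-- The character of degree 8 of `B`: `8` on `Z`, `-1` on `P \ Z`, `0` off `P`. -/
noncomputable def psi8 {G : Type u} [Group G] (B P Z : Subgroup G) : B → ℂ :=
  fun b => if (b : G) ∈ Z then 8 else if (b : G) ∈ P then -1 else 0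

/-- `lam : B →* ℂˣ` has kernel `P` and sends `t` to a primitive 8th root of unity. -/
structure LamSpec {G : Type u} [Group G] (B P : Subgroup G) (t : G) (lam : B →* ℂˣ) : Prop where
  prim : ∀ ht : t ∈ B, IsPrimitiveRoot ((lam ⟨t, ht⟩ : ℂˣ) : ℂ) 8
  ker : ∀ b : B, lam b = 1 ↔ (b : G) ∈ P

/-- The output for `G`: irreducible character degrees divisible by 6, 14 and 21. -/
def CharOut (G : Type u) [Group G] : Prop :=
  (∃ d ∈ charDegrees G, 6 ∣ d) ∧ (∃ d ∈ charDegrees G, 14 ∣ d) ∧ (∃ d ∈ charDegrees G, 21 ∣ d)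

/-! ## Packages: cardinalities (abstract group theory) -/

/-- [CARDBWB] `|G| = |B| + |B|^2 / |T|` when `G = B ⊔ B w B` and `B ∩ w B w⁻¹ = T`. -/
def PkgCardBwB : Prop := ∀ (G : Type u) [Group G] [Finite G] (B T : Subgroup G) (w : G),
  T ≤ B → w ∉ B → (∀ g : G, g ∉ B → ∃ b₁ ∈ B, ∃ b₂ ∈ B, g = b₁ * w * b₂) →
  (∀ b ∈ B, (w⁻¹ * b * w ∈ B ↔ b ∈ T)) →
  Nat.card G * Nat.card T = Nat.card B * Nat.card T + Nat.card B ^ 2

/-- [CARDBPT] `|B| = |P| * o(t)` when `B = P ⟨t⟩` and `P ∩ ⟨t⟩ = 1`. -/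
def PkgCardBPT : Prop := ∀ (G : Type u) [Group G] [Finite G] (B P : Subgroup G) (t : G),
  P ≤ B → t ∈ B → (∀ b ∈ B, ∃ k : ℕ, b * t ^ k ∈ P) → (∀ k : ℕ, t ^ k ∈ P → t ^ k = 1) →
  Nat.card B = Nat.card P * orderOf t

/-- [CARDZ] the centre of a nonabelian group of order 27 has order 3. -/
def PkgCardZ : Prop := ∀ (G : Type u) [Group G] [Finite G] (P Z : Subgroup G), Z ≤ P →
  Nat.card P = 27 → (∀ z ∈ Z, ∀ p ∈ P, z * p = p * z) →
  (∀ p ∈ P, p ∉ Z → ∃ q ∈ P, p * q ≠ q * p) → (∃ p ∈ P, p ∉ Z) → Nat.card Z = 3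

/-! ## Packages: characters of `B` -/

/-- [LIN] the linear character of `B` with kernel `P`. -/
def PkgLin : Prop := ∀ (G : Type u) [Group G] [Finite G] (B P Z : Subgroup G) (t w : G),
  Datum G B P Z t w → ∃ lam : B →* ℂˣ, LamSpec B P t lam

/-- [PSICHAR] `psi8` is a character of `B`. -/
def PkgPsiChar : Prop := ∀ (G : Type u) [Group G] [Finite G] (B P Z : Subgroup G) (t w : G),
  Datum G B P Z t w → IsCharacter B (psi8 B P Z)

open Classical in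
/-- [DEGSUM] `∑_j λ^j + 8 ψ₈ = 72 · 1_Z` on `B`, as inner products. -/
def PkgDegSum : Prop := ∀ (G : Type u) [Group G] [Fintype G] (B P Z : Subgroup G) [Fintype B]
  (t w : G), Datum G B P Z t w → ∀ lam : B →* ℂˣ, LamSpec B P t lam → ∀ θ : B → ℂ,
  (∑ j ∈ Finset.range 8, classInner (lamJ lam j) θ) + 8 * classInner (psi8 B P Z) θ =
    (3 : ℂ)⁻¹ * ∑ b : B, (if (b : G) ∈ Z then conj (θ b) else 0)

/-- [P3] characters of a nonabelian group of order 27 on its centre. -/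
def PkgP3 : Prop := ∀ (P : Type u) [Group P] [Finite P] (Z : Subgroup P), Nat.card P = 27 →
  Nat.card Z = 3 → (∀ z ∈ Z, ∀ p : P, z * p = p * z) → (∀ p q : P, p * q * p⁻¹ * q⁻¹ ∈ Z) →
  (∀ p : P, p ∉ Z → ∃ q : P, p * q ≠ q * p) →
  ∀ θ : P → ℂ, IsCharacter P θ → ∀ z ∈ Z, z ≠ 1 → θ z = θ z⁻¹ → ∃ m : ℕ, θ 1 - θ z = 9 * (m : ℂ)

/-- [TRIV] inner products on `B` with the trivial character. -/
def PkgTriv : Prop := ∀ (G : Type u) [Group G] [Fintype G] (B P Z : Subgroup G) [Fintype B]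
  (t w : G), Datum G B P Z t w → ∀ lam : B →* ℂˣ, LamSpec B P t lam →
  (∀ j : ℕ, j < 8 → classInner (lamJ lam j) (fun _ : B => (1 : ℂ)) = if j = 0 then 1 else 0) ∧
    classInner (psi8 B P Z) (fun _ : B => (1 : ℂ)) = 0

/-! ## Packages: induction to `G` -/

/-- [MACKEY] the Mackey formula for `G = B ⊔ B w B`, `B ∩ w B w⁻¹ = T`. -/
def PkgMackey : Prop := ∀ (G : Type u) [Group G] [Fintype G] (B T : Subgroup G) [Fintype B]
  (w : G), T ≤ B → w ∉ B → (∀ g : G, g ∉ B → ∃ b₁ ∈ B, ∃ b₂ ∈ B, g = b₁ * w * b₂) →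
  (∀ b ∈ B, (w⁻¹ * b * w ∈ B ↔ b ∈ T)) →
  ∀ φ ψ : B → ℂ, IsClassFunction B φ → IsClassFunction B ψ →
    classInner (indFun B φ) (indFun B ψ) = classInner φ ψ +
      (Nat.card T : ℂ)⁻¹ * ∑ y : G, extendByZero B φ y * conj (extendByZero B ψ (w⁻¹ * y * w))

/-- [GRAMLL] -/
def PkgGramLL : Prop := ∀ (G : Type u) [Group G] [Fintype G] (B P Z : Subgroup G) (t w : G),
  Datum G B P Z t w → ∀ lam : B →* ℂˣ, LamSpec B P t lam → PkgMackey.{u} →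
  ∀ i j : ℕ, i < 8 → j < 8 →
    classInner (indFun B (lamJ lam i)) (indFun B (lamJ lam j)) =
      (if i = j then 1 else 0) + (if i = (5 * j) % 8 then 1 else 0)

/-- [GRAMLP] -/
def PkgGramLP : Prop := ∀ (G : Type u) [Group G] [Fintype G] (B P Z : Subgroup G) (t w : G),
  Datum G B P Z t w → ∀ lam : B →* ℂˣ, LamSpec B P t lam → PkgMackey.{u} →
  ∀ j : ℕ, j < 8 → classInner (indFun B (lamJ lam j)) (indFun B (psi8 B P Z)) = 1

/-- [GRAMPP] -/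
def PkgGramPP : Prop := ∀ (G : Type u) [Group G] [Fintype G] (B P Z : Subgroup G) (t w : G),
  Datum G B P Z t w → ∀ lam : B →* ℂˣ, LamSpec B P t lam → PkgMackey.{u} →
  classInner (indFun B (psi8 B P Z)) (indFun B (psi8 B P Z)) = 9

/-- [DEGG] the degree congruence for characters of `G`. -/
def PkgDegG : Prop := ∀ (G : Type u) [Group G] [Fintype G] (B P Z : Subgroup G) (t w : G),
  Datum G B P Z t w → ∀ lam : B →* ℂˣ, LamSpec B P t lam → PkgDegSum.{u} → PkgP3.{u} →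
  ∀ χ : G → ℂ, IsCharacter G χ → ∃ m : ℕ,
    χ 1 = (∑ j ∈ Finset.range 8, classInner (indFun B (lamJ lam j)) χ) +
      8 * classInner (indFun B (psi8 B P Z)) χ + 6 * (m : ℂ)

/-- [PERF1] a perfect group has only the trivial linear character. -/
def PkgPerf1 : Prop := ∀ (G : Type u) [Group G] [Finite G], commutator G = ⊤ →
  ∀ χ : G → ℂ, IsIrrCharacter G χ → χ 1 = 1 → χ = fun _ => 1

/-- [INDDEG] the degree of an induced function. -/
def PkgIndDeg : Prop := ∀ (G : Type u) [Group G] [Fintype G] (B : Subgroup G) (θ : B → ℂ),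
  (Nat.card B : ℂ) * indFun B θ 1 = (Nat.card G : ℂ) * θ 1

/-! ## Packages: arithmetic of the multiplicities -/

/-- The numerical data: `d` degrees, `c j` multiplicities in `Ind λ^j`, `x` multiplicities in
`Ind ψ₈`, `m` the `Z`-free part, `χ₀` the trivial character. -/
structure ArithHyp (ι : Type u) [Fintype ι] (d : ι → ℕ) (c : ℕ → ι → ℕ) (x m : ι → ℕ)
    (χ₀ : ι) : Prop where
  A1 : ∀ χ, d χ = ∑ j ∈ Finset.range 8, c j χ + 8 * x χ + 6 * m χ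
  A2 : ∀ i j, i < 8 → j < 8 →
    ∑ χ, c i χ * c j χ = (if i = j then 1 else 0) + (if i = (5 * j) % 8 then 1 else 0)
  A3 : ∀ j, j < 8 → ∑ χ, c j χ * x χ = 1
  A4 : ∑ χ, x χ ^ 2 = 9
  A5 : ∑ χ, d χ ^ 2 = 6048
  A6 : ∀ χ, 0 < d χ ∧ d χ ∣ 6048
  A7 : d χ₀ = 1 ∧ c 0 χ₀ = 1 ∧ (∀ j, 0 < j → j < 8 → c j χ₀ = 0) ∧ x χ₀ = 0
  A7u : ∀ χ, d χ = 1 → χ = χ₀
  A8 : ∀ j, j < 8 → ∑ χ, c j χ * d χ = 28
  A9 : ∑ χ, x χ * d χ = 224

/-- [ARITH14] -/
def PkgArith14 : Prop := ∀ (ι : Type u) [Fintype ι] (d : ι → ℕ) (c : ℕ → ι → ℕ) (x m : ι → ℕ)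
  (χ₀ : ι), ArithHyp ι d c x m χ₀ → ∃ χ, 14 ∣ d χ

/-- [ARITH21] -/
def PkgArith21 : Prop := ∀ (ι : Type u) [Fintype ι] (d : ι → ℕ) (c : ℕ → ι → ℕ) (x m : ι → ℕ)
  (χ₀ : ι), ArithHyp ι d c x m χ₀ → ∃ χ, 21 ∣ d χ

/-- [ARITH6] -/
def PkgArith6 : Prop := ∀ (ι : Type u) [Fintype ι] (d : ι → ℕ) (c : ℕ → ι → ℕ) (x m : ι → ℕ)
  (χ₀ : ι), ArithHyp ι d c x m χ₀ → ∃ χ, 6 ∣ d χ

/-! ## Packages: the solvable group, the model, transport -/

/-- [SOLV] a solvable group of order 6048 with an irreducible character of degree 42. -/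
def PkgSolv : Prop := ∃ (H : Type) (_ : Group H) (_ : Fintype H), IsSolvable H ∧
  Nat.card H = 6048 ∧ ∃ χ : H → ℂ, IsIrrCharacter H χ ∧ χ 1 = 42

/-- [RAW] the raw Borel datum in the antidiagonal model `UJ 3 σ` of `SU(3,3)`. -/
def PkgRaw : Prop := ∀ (F : Type u) [Field F] [Fintype F] (hF : Fintype.card F = 3 ^ 2),
  ∃ (B P Z : Subgroup (Cfsg.Agent.Lib.Helper86.Un.UJ 3 (Cfsg.Agent.Lib.Helper45.sigmaQ hF)))
    (t w : Cfsg.Agent.Lib.Helper86.Un.UJ 3 (Cfsg.Agent.Lib.Helper45.sigmaQ hF)),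
    RawDatum (Cfsg.Agent.Lib.Helper86.Un.UJ 3 (Cfsg.Agent.Lib.Helper45.sigmaQ hF)) B P Z t w

/-- [ISO] the model is isomorphic to `PSU 3 F 3`. -/
def PkgIso : Prop := ∀ (F : Type u) [Field F] [Fintype F] (hF : Fintype.card F = 3 ^ 2),
  Nonempty (Cfsg.Agent.Lib.Helper86.Un.UJ 3 (Cfsg.Agent.Lib.Helper45.sigmaQ hF) ≃* Cfsg.PSU 3 F 3)

/-- [CDEQ] isomorphic groups have the same character degrees. -/
def PkgCDEq : Prop := ∀ (G G' : Type u) [Group G] [Group G'], Nonempty (G ≃* G') →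
  charDegrees G = charDegrees G'

end Cfsg.Agent.Lib.Helper14.DG33
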