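import Mathlib
import Cfsg.Agent.Lib.Helper14.DG33.Defs
import Cfsg.Agent.Lib.Helper3.CharRegular
import Cfsg.Agent.Lib.Helper3.CharDecomp
import Cfsg.Agent.Lib.Helper3.IndFun
import Cfsg.Agent.Lib.Helper3.Burnside
import Cfsg.Agent.Lib.Helper75.CharDecomp
import Cfsg.Agent.Lib.Helper75.CharInd
import Cfsg.Agent.Lib.Helper79.CharSum
import Cfsg.Agent.Lib.Helper15.LinChar

set_option autoImplicit false

namespace Cfsg.Agent.Lib.Helper14.DG33

open Cfsg
open scoped ComplexConjugate

universe u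

section
variable {G : Type u} [Group G] [Fintype G] [Fintype (IrrCharacter G)]

/-- the inner product of two characters in terms of multiplicities -/
theorem inner_mult {Θ₁ Θ₂ : G → ℂ} (h2 : IsCharacter G Θ₂) (n₁ n₂ : IrrCharacter G → ℕ)
    (e₁ : Θ₁ = ∑ ψ : IrrCharacter G, (n₁ ψ : ℂ) • (ψ : G → ℂ))
    (e₂ : Θ₂ = ∑ ψ : IrrCharacter G, (n₂ ψ : ℂ) • (ψ : G → ℂ)) :
    classInner Θ₁ Θ₂ = ((∑ χ : IrrCharacter G, n₁ χ * n₂ χ : ℕ) : ℂ) := by
  rw [Cfsg.Agent.Lib.Helper3.classInner_eq_pair Θ₁ h2]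
  have key := Cfsg.Agent.Lib.Helper3.pair_sum_sum_irr (G := G) (fun χ => (n₁ χ : ℂ))
    (fun χ => (n₂ χ : ℂ))
  have e : Cfsg.Agent.Lib.Helper3.pair Θ₁ Θ₂ =
      Cfsg.Agent.Lib.Helper3.pair (∑ ψ : IrrCharacter G, (n₁ ψ : ℂ) • (ψ : G → ℂ))
        (∑ ψ : IrrCharacter G, (n₂ ψ : ℂ) • (ψ : G → ℂ)) :=
    congrArg₂ Cfsg.Agent.Lib.Helper3.pair e₁ e₂
  rw [e, key]
  push_cast
  rfl

/-- the degree of a character in terms of multiplicities -/
theorem deg_mult {Θ : G → ℂ} (n d : IrrCharacter G → ℕ)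
    (hd : ∀ χ : IrrCharacter G, (χ : G → ℂ) 1 = (d χ : ℂ))
    (e : Θ = ∑ ψ : IrrCharacter G, (n ψ : ℂ) • (ψ : G → ℂ)) :
    Θ 1 = ((∑ χ : IrrCharacter G, n χ * d χ : ℕ) : ℂ) := by
  rw [e]
  simp only [Finset.sum_apply, Pi.smul_apply, smul_eq_mul, hd]
  push_cast
  rfl

end

theorem lamJ_isCharacter {G : Type u} [Group G] {B : Subgroup G} (lam : B →* ℂˣ) (j : ℕ) :
    IsCharacter B (lamJ lam j) := by
  have h := Cfsg.Agent.Lib.Helper15.isCharacter_of_hom (lam ^ j)
  have e : (fun g : B => (((lam ^ j) g : ℂˣ) : ℂ)) = lamJ lam j := by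
    funext g
    simp [lamJ]
  rw [e] at h
  exact h

set_option maxHeartbeats 1000000 in
/-- the Borel datum gives irreducible degrees divisible by 6, 14 and 21 -/
theorem charOut_of (hLin : PkgLin.{u}) (hPsi : PkgPsiChar.{u}) (hDegSum : PkgDegSum.{u})
    (hP3 : PkgP3.{u}) (hTriv : PkgTriv.{u}) (hMack : PkgMackey.{u}) (hLL : PkgGramLL.{u})
    (hLP : PkgGramLP.{u}) (hPP : PkgGramPP.{u}) (hDegG : PkgDegG.{u}) (hPerf : PkgPerf1.{u})
    (hInd : PkgIndDeg.{u}) (h14 : PkgArith14.{u}) (h21 : PkgArith21.{u}) (h6 : PkgArith6.{u})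
    (G : Type u) [Group G] [Finite G] (B P Z : Subgroup G) (t w : G) (D : Datum G B P Z t w) :
    CharOut G := by
  classical
  haveI : Fintype G := Fintype.ofFinite G
  haveI : Fintype B := Fintype.ofFinite B
  haveI : Fintype (IrrCharacter G) := Fintype.ofFinite _
  obtain ⟨lam, hlam⟩ := hLin G B P Z t w D
  have hΛ : ∀ j : ℕ, IsCharacter G (indFun B (lamJ lam j)) := fun j =>
    Cfsg.Agent.Lib.Helper75.isCharacter_indFun B (lamJ_isCharacter lam j)
  have hΨ : IsCharacter G (indFun B (psi8 B P Z)) :=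
    Cfsg.Agent.Lib.Helper75.isCharacter_indFun B (hPsi G B P Z t w D)
  choose c hc hc' using fun j : ℕ => Cfsg.Agent.Lib.Helper75.char_eq_sum_irr (hΛ j)
  obtain ⟨x, hx, hx'⟩ := Cfsg.Agent.Lib.Helper75.char_eq_sum_irr hΨ
  choose d hd0 hd1 hd2 using fun χ : IrrCharacter G =>
    Cfsg.Agent.Lib.Helper79.irr_degree_dvd χ.2
  choose m hm using fun χ : IrrCharacter G =>
    hDegG G B P Z t w D lam hlam hDegSum hP3 (χ : G → ℂ)
      (Cfsg.Agent.Lib.Helper3.isCharacter_of_irr χ.2)
  set χ₀ : IrrCharacter G := ⟨fun _ => (1 : ℂ), Cfsg.Agent.Lib.Helper3.isIrrCharacter_one⟩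
    with hχ₀
  have hcardG : (Nat.card G : ℂ) = 6048 := by rw [D.raw.cardG]; norm_num
  have hcardB : (Nat.card B : ℂ) = 216 := by rw [D.cardB]; norm_num
  have hyp : ArithHyp (IrrCharacter G) d c x m χ₀ := by
    refine ⟨?_, ?_, ?_, ?_, ?_, ?_, ?_, ?_, ?_, ?_⟩
    · -- A1
      intro χ
      have h := hm χ
      rw [hd1 χ, hx χ] at h
      simp only [hc] at h
      exact_mod_cast h
    · -- A2
      intro i j hi hj
      have h := hLL G B P Z t w D lam hlam hMack i j hi hj
      rw [inner_mult (hΛ j) (c i) (c j) (hc' i) (hc' j)] at h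
      by_cases h1 : i = j <;> by_cases h2 : i = (5 * j) % 8 <;>
        simp only [h1, h2, if_true, if_false] at h ⊢ <;> first
          | exact_mod_cast h
          | (norm_num at h; exact_mod_cast h)
    · -- A3
      intro j hj
      have h := hLP G B P Z t w D lam hlam hMack j hj
      rw [inner_mult hΨ (c j) x (hc' j) hx'] at h
      exact_mod_cast h
    · -- A4
      have h := hPP G B P Z t w D lam hlam hMack
      rw [inner_mult hΨ x x hx' hx'] at h
      have h' : ∑ χ : IrrCharacter G, x χ * x χ = 9 := by exact_mod_cast h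
      rw [← h']
      exact Finset.sum_congr rfl (fun χ _ => by ring)
    · -- A5
      have h := Cfsg.Agent.Lib.Helper3.sum_degree_sq (G := G)
      rw [hcardG] at h
      simp only [hd1] at h
      exact_mod_cast h
    · -- A6
      intro χ
      refine ⟨hd0 χ, ?_⟩
      have := hd2 χ
      rwa [D.raw.cardG] at this
    · -- A7
      have hT := hTriv G B P Z t w D lam hlam
      have hfr : ∀ f : B → ℂ, classInner (indFun B f) (fun _ : G => (1 : ℂ)) =
          classInner f (fun _ : B => (1 : ℂ)) := fun f =>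
        Cfsg.Agent.Lib.Helper3.frobenius_reciprocity B f (fun _ : G => (1 : ℂ))
          (fun _ _ => rfl)
      refine ⟨?_, ?_, ?_, ?_⟩
      · have h := hd1 χ₀
        have h' : ((1 : ℕ) : ℂ) = (d χ₀ : ℂ) := by rw [← h]; simp [hχ₀]
        exact_mod_cast h'.symm
      · have h := hc 0 χ₀
        have h2 : classInner (indFun B (lamJ lam 0)) (χ₀ : G → ℂ) = 1 := by
          have := hfr (lamJ lam 0)
          rw [hT.1 0 (by norm_num)] at this
          simpa [hχ₀] using this
        rw [h2] at h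
        exact_mod_cast h.symm
      · intro j hj0 hj
        have h := hc j χ₀
        have h2 : classInner (indFun B (lamJ lam j)) (χ₀ : G → ℂ) = 0 := by
          have := hfr (lamJ lam j)
          rw [hT.1 j hj, if_neg (by omega)] at this
          simpa [hχ₀] using this
        rw [h2] at h
        exact_mod_cast h.symm
      · have h := hx χ₀
        have h2 : classInner (indFun B (psi8 B P Z)) (χ₀ : G → ℂ) = 0 := by
          have := hfr (psi8 B P Z)
          rw [hT.2] at this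
          simpa [hχ₀] using this
        rw [h2] at h
        exact_mod_cast h.symm
    · -- A7u
      intro χ hχ
      have h1 : (χ : G → ℂ) 1 = 1 := by rw [hd1 χ, hχ]; simp
      have := hPerf G D.raw.perfect (χ : G → ℂ) χ.2 h1
      exact Subtype.ext this
    · -- A8
      intro j hj
      have h := hInd G B (lamJ lam j)
      rw [hcardG, hcardB, deg_mult (c j) d hd1 (hc' j)] at h
      have h1 : lamJ lam j 1 = 1 := by simp [lamJ]
      rw [h1] at h
      have h2 : ((216 * ∑ χ : IrrCharacter G, c j χ * d χ : ℕ) : ℂ) = ((6048 : ℕ) : ℂ) := by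
        push_cast
        push_cast at h
        linear_combination h
      have h3 : 216 * ∑ χ : IrrCharacter G, c j χ * d χ = 6048 := by exact_mod_cast h2
      omega
    · -- A9
      have h := hInd G B (psi8 B P Z)
      rw [hcardG, hcardB, deg_mult x d hd1 hx'] at h
      have h1 : psi8 B P Z 1 = 8 := by
        unfold psi8
        rw [if_pos]
        exact Z.one_mem
      rw [h1] at h
      have h2 : ((216 * ∑ χ : IrrCharacter G, x χ * d χ : ℕ) : ℂ) = ((48384 : ℕ) : ℂ) := by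
        push_cast
        push_cast at h
        linear_combination h
      have h3 : 216 * ∑ χ : IrrCharacter G, x χ * d χ = 48384 := by exact_mod_cast h2
      omega
  have hmem : ∀ χ : IrrCharacter G, d χ ∈ charDegrees G := by
    intro χ
    refine ⟨χ, ?_⟩
    unfold charDegree
    rw [hd1 χ]
    simp
  obtain ⟨χ6, h6'⟩ := h6 (IrrCharacter G) d c x m χ₀ hyp
  obtain ⟨χ14, h14'⟩ := h14 (IrrCharacter G) d c x m χ₀ hyp
  obtain ⟨χ21, h21'⟩ := h21 (IrrCharacter G) d c x m χ₀ hyp
  exact ⟨⟨d χ6, hmem χ6, h6'⟩, ⟨d χ14, hmem χ14, h14'⟩, ⟨d χ21, hmem χ21, h21'⟩⟩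

end Cfsg.Agent.Lib.Helper14.DG33
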