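import Mathlib
import Cfsg.Agent.Lib.Helper14.DG33.Defs
import Cfsg.Agent.Lib.Helper3.IndFun
import Cfsg.Agent.Lib.Helper3.CharValues
import Cfsg.Agent.Lib.Helper75.CharInd

set_option autoImplicit false

namespace Cfsg.Agent.Lib.Helper14.DG33

open Cfsg
open scoped ComplexConjugate

universe u

set_option maxHeartbeats 1000000 in
/-- [DEGG] -/
theorem pkgDegG : PkgDegG.{u} := by
  intro G _ _ B P Z t w D lam hlam hDegSum hP3 χ hχ
  classical
  haveI : Fintype B := Fintype.ofFinite B
  have R := D.raw
  have ZB : Z ≤ B := R.ZP.trans R.PB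
  have hcf : IsClassFunction G χ := Cfsg.Agent.Lib.Helper3.isClassFunction_of_isCharacter hχ
  have hfr : ∀ f : B → ℂ, classInner (indFun B f) χ = classInner f (fun b : B => χ b) :=
    fun f => Cfsg.Agent.Lib.Helper3.frobenius_reciprocity B f χ hcf
  have hds := hDegSum G B P Z t w D lam hlam (fun b : B => χ b)
  -- a nontrivial element of Z
  haveI : Nontrivial Z := by
    rw [← Finite.one_lt_card_iff_nontrivial, D.cardZ]
    norm_num
  obtain ⟨z, hz⟩ := exists_ne (1 : Z)
  have hz0 : (z : G) ≠ 1 := fun h => hz (Subtype.ext h)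
  have hzZ : (z : G) ∈ Z := z.2
  have hzinv : χ (z : G)⁻¹ = χ (z : G) := by
    have h := hcf (z : G) t
    rw [R.tinv (z : G) hzZ] at h
    exact h
  -- z⁻¹ ≠ z
  have hzne : (z : G)⁻¹ ≠ (z : G) := by
    intro h
    have h2 : (z : G) ^ 2 = 1 := by
      rw [pow_two]
      nth_rewrite 1 [← h]
      exact inv_mul_cancel _
    have h3 : (z : G) ^ 3 = 1 := by
      have : z ^ 3 = 1 := by
        have := pow_card_eq_one' (G := Z) (x := z)
        rwa [D.cardZ] at this
      have := congrArg (Subtype.val : Z → G) this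
      simpa using this
    have : (z : G) = 1 := by
      calc (z : G) = (z : G) ^ 3 * ((z : G) ^ 2)⁻¹ := by group
        _ = 1 := by rw [h2, h3]; simp
    exact hz0 this
  -- the three elements of Z inside B
  let b1 : B := 1
  let bz : B := ⟨(z : G), ZB hzZ⟩
  let bzi : B := ⟨(z : G)⁻¹, ZB (Z.inv_mem hzZ)⟩
  have hset : Finset.univ.filter (fun b : B => (b : G) ∈ Z) = {b1, bz, bzi} := by
    symm
    apply Finset.eq_of_subset_of_card_le
    · intro b hb
      simp only [Finset.mem_insert, Finset.mem_singleton] at hb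
      refine Finset.mem_filter.2 ⟨Finset.mem_univ _, ?_⟩
      rcases hb with rfl | rfl | rfl
      · exact Z.one_mem
      · exact hzZ
      · exact Z.inv_mem hzZ
    · have h3 : (Finset.univ.filter (fun b : B => (b : G) ∈ Z)).card = 3 := by
        have hc : Nat.card (Z.subgroupOf B) = 3 := by
          rw [← D.cardZ]
          exact Nat.card_congr (Subgroup.subgroupOfEquivOfLe ZB).toEquiv
        rw [← hc, Nat.card_eq_fintype_card, Fintype.card_subtype]
        congr 1
      rw [h3]
      have hne1 : b1 ≠ bz := fun h => hz0 (congrArg Subtype.val h).symm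
      have hne2 : b1 ≠ bzi := fun h => hz0 (inv_eq_one.1 (congrArg Subtype.val h).symm)
      have hne3 : bz ≠ bzi := fun h => hzne (congrArg Subtype.val h).symm
      rw [Finset.card_insert_of_notMem (by simp [hne1, hne2]),
        Finset.card_insert_of_notMem (by simp [hne3]), Finset.card_singleton]
  have hsum : ∑ b : B, (if (b : G) ∈ Z then conj (χ b) else 0) =
      conj (χ 1) + conj (χ (z : G)) + conj (χ (z : G)⁻¹) := by
    rw [← Finset.sum_filter, hset]
    have hne1 : b1 ≠ bz := fun h => hz0 (congrArg Subtype.val h).symm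
    have hne2 : b1 ≠ bzi := fun h => hz0 (inv_eq_one.1 (congrArg Subtype.val h).symm)
    have hne3 : bz ≠ bzi := fun h => hzne (congrArg Subtype.val h).symm
    rw [Finset.sum_insert (by simp [hne1, hne2]), Finset.sum_insert (by simp [hne3]),
      Finset.sum_singleton]
    simp only [b1, bz, bzi, Subgroup.coe_one]
    ring
  -- conjugates
  have hc1 : conj (χ 1) = χ 1 := by
    have := Cfsg.Agent.Lib.Helper3.isCharacter_inv hχ 1
    rw [inv_one] at this
    exact this.symm
  have hc2 : conj (χ (z : G)) = χ (z : G) := by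
    rw [← Cfsg.Agent.Lib.Helper3.isCharacter_inv hχ, hzinv]
  have hc3 : conj (χ (z : G)⁻¹) = χ (z : G) := by
    rw [← Cfsg.Agent.Lib.Helper3.isCharacter_inv hχ, inv_inv]
  -- P3
  have hres : IsCharacter P (fun p : P => χ p) := Cfsg.Agent.Lib.Helper75.isCharacter_res P hχ
  obtain ⟨m, hm⟩ := hP3 P (Z.subgroupOf P) D.cardP
    (by rw [← D.cardZ]; exact Nat.card_congr (Subgroup.subgroupOfEquivOfLe R.ZP).toEquiv)
    (by
      intro y hy p
      rw [Subgroup.mem_subgroupOf] at hy
      apply Subtype.ext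
      have := R.Zcent (y : G) hy (p : G) p.2
      simpa using this)
    (by
      intro p q
      rw [Subgroup.mem_subgroupOf]
      have := R.Pcomm (p : G) p.2 (q : G) q.2
      simpa using this)
    (by
      intro p hp
      rw [Subgroup.mem_subgroupOf] at hp
      obtain ⟨q, hq, hne⟩ := R.Pnc (p : G) p.2 hp
      refine ⟨⟨q, hq⟩, fun h => hne ?_⟩
      have := congrArg (Subtype.val : P → G) h
      simpa using this)
    (fun p : P => χ p) hres ⟨(z : G), R.ZP hzZ⟩
    (by rw [Subgroup.mem_subgroupOf]; exact hzZ)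
    (fun h => hz0 (congrArg Subtype.val h))
    (by
      show χ (z : G) = χ (((⟨(z : G), R.ZP hzZ⟩ : P)⁻¹ : P) : G)
      rw [Subgroup.coe_inv]
      exact hzinv.symm)
  have hm' : χ 1 - χ (z : G) = 9 * (m : ℂ) := by
    simpa using hm
  refine ⟨m, ?_⟩
  simp only [hfr]
  rw [hds, hsum, hc1, hc2, hc3]
  have : χ (z : G) = χ 1 - 9 * (m : ℂ) := by linear_combination -hm'
  rw [this]
  ring

end Cfsg.Agent.Lib.Helper14.DG33
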