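import Mathlib
import Cfsg.Agent.Lib.Helper14.DG33.Defs
import Cfsg.Agent.Lib.Helper79.CharSum

set_option autoImplicit false

namespace Cfsg.Agent.Lib.Helper14.DG33

open Cfsg

universe u

/-- the Borel datum from the raw datum and the cardinality packages -/
theorem datum_of_raw (hBwB : PkgCardBwB.{u}) (hBPT : PkgCardBPT.{u}) (hZ : PkgCardZ.{u})
    (G : Type u) [Group G] [Finite G] (B P Z : Subgroup G) (t w : G)
    (R : RawDatum G B P Z t w) : Datum G B P Z t w := by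
  have hT : Nat.card (Subgroup.zpowers t) = 8 := by rw [Nat.card_zpowers, R.ordt]
  have hTB : Subgroup.zpowers t ≤ B := (Subgroup.zpowers_le).2 R.tB
  have h1 := hBwB G B (Subgroup.zpowers t) w hTB R.wB R.bruhat R.inter
  rw [hT, R.cardG] at h1
  have hB : Nat.card B = 216 := by
    rcases lt_trichotomy (Nat.card B) 216 with h | h | h
    · exfalso
      have h' : Nat.card B ≤ 215 := by omega
      nlinarith
    · exact h
    · exfalso
      have h' : 217 ≤ Nat.card B := by omega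
      nlinarith
  have h2 := hBPT G B P t R.PB R.tB R.BPT R.PT
  rw [hB, R.ordt] at h2
  have hP : Nat.card P = 27 := by omega
  exact ⟨R, hB, hP, hZ G P Z R.ZP hP R.Zcent R.Pnc R.Pne⟩

theorem prime_dvd_6048 {p : ℕ} (hp : p.Prime) (h : p ∣ 6048) : p = 2 ∨ p = 3 ∨ p = 7 := by
  have e : (6048 : ℕ) = 2 ^ 5 * (3 ^ 3 * 7) := by norm_num
  rw [e] at h
  rcases (Nat.Prime.dvd_mul hp).1 h with h | h
  · left
    exact (Nat.prime_dvd_prime_iff_eq hp Nat.prime_two).1 (hp.dvd_of_dvd_pow h)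
  · rcases (Nat.Prime.dvd_mul hp).1 h with h | h
    · right; left
      exact (Nat.prime_dvd_prime_iff_eq hp Nat.prime_three).1 (hp.dvd_of_dvd_pow h)
    · right; right
      exact (Nat.prime_dvd_prime_iff_eq hp (by norm_num)).1 h

/-- a group of order 6048 with degrees divisible by 6, 14, 21: its degree graph -/
theorem glue (X : Type u) [Group X] [Finite X] (hX : Nat.card X = 6048) (h : CharOut X) :
    degreePrimes X = {p | p = 2 ∨ p = 3 ∨ p = 7} ∧
      ∀ p q : ℕ, (degreeGraph X).Adj p q ↔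
        (p ≠ q ∧ (p = 2 ∨ p = 3 ∨ p = 7) ∧ (q = 2 ∨ q = 3 ∨ q = 7)) := by
  obtain ⟨⟨d6, hd6, h6⟩, ⟨d14, hd14, h14⟩, ⟨d21, hd21, h21⟩⟩ := h
  have key : ∀ d ∈ charDegrees X, d ∣ 6048 := by
    rintro d ⟨χ, rfl⟩
    obtain ⟨n, _, hn1, hn2⟩ := Cfsg.Agent.Lib.Helper79.irr_degree_dvd χ.2
    have : charDegree (χ : X → ℂ) = n := by
      unfold charDegree
      rw [hn1]
      simp
    rw [this, ← hX]
    exact hn2
  have kp : ∀ p : ℕ, p.Prime → ∀ d ∈ charDegrees X, p ∣ d → (p = 2 ∨ p = 3 ∨ p = 7) :=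
    fun p hp d hd hpd => prime_dvd_6048 hp (hpd.trans (key d hd))
  refine ⟨?_, ?_⟩
  · ext p
    constructor
    · rintro ⟨hp, d, hd, hpd⟩
      exact kp p hp d hd hpd
    · rintro (rfl | rfl | rfl)
      · exact ⟨Nat.prime_two, d6, hd6, (by norm_num : (2 : ℕ) ∣ 6).trans h6⟩
      · exact ⟨Nat.prime_three, d6, hd6, (by norm_num : (3 : ℕ) ∣ 6).trans h6⟩
      · exact ⟨by norm_num, d14, hd14, (by norm_num : (7 : ℕ) ∣ 14).trans h14⟩
  · intro p q
    constructor
    · rintro ⟨hne, hp, hq, d, hd, hpq⟩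
      exact ⟨hne, kp p hp d hd ((Dvd.intro _ rfl).trans hpq),
        kp q hq d hd ((Dvd.intro_left _ rfl).trans hpq)⟩
    · rintro ⟨hne, hp, hq⟩
      have p2 := Nat.prime_two
      have p3 := Nat.prime_three
      have p7 : (7 : ℕ).Prime := by norm_num
      rcases hp with rfl | rfl | rfl <;> rcases hq with rfl | rfl | rfl
      · exact absurd rfl hne
      · exact ⟨hne, p2, p3, d6, hd6, h6⟩
      · exact ⟨hne, p2, p7, d14, hd14, h14⟩
      · exact ⟨hne, p3, p2, d6, hd6, h6⟩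
      · exact absurd rfl hne
      · exact ⟨hne, p3, p7, d21, hd21, h21⟩
      · exact ⟨hne, p7, p2, d14, hd14, h14⟩
      · exact ⟨hne, p7, p3, d21, hd21, h21⟩
      · exact absurd rfl hne

/-- the statement from the solvable group and the degrees of `PSU 3 F 3` -/
theorem final_of (hSolv : PkgSolv) (G : Type u) [Group G] [Finite G] (hG : Nat.card G = 6048)
    (hC : CharOut G) :
    ∃ (H : Type) (_ : Group H) (_ : Fintype H), Group.IsSolvable H ∧ Nat.card H = 6048 ∧
      degreePrimes H = degreePrimes G ∧ degreeGraph H = degreeGraph G := by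
  obtain ⟨H, iG, iF, hs, hc, χ, hχ, hχ1⟩ := hSolv
  have h42 : 42 ∈ charDegrees H := by
    refine ⟨⟨χ, hχ⟩, ?_⟩
    unfold charDegree
    show ⌊(χ 1).re⌋₊ = 42
    rw [hχ1]
    simp
  have hCH : CharOut H := ⟨⟨42, h42, by norm_num⟩, ⟨42, h42, by norm_num⟩, ⟨42, h42, by norm_num⟩⟩
  have g1 := glue H hc hCH
  have g2 := glue G hG hC
  refine ⟨H, iG, iF, hs, hc, ?_, ?_⟩
  · rw [g1.1, g2.1]
  · ext p q
    rw [g1.2, g2.2]

end Cfsg.Agent.Lib.Helper14.DG33
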