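import Mathlib
import Cfsg.Agent.Lib.Helper14.DG33.Defs
import Cfsg.Agent.Lib.Helper14.DG33.CharMain
import Cfsg.Agent.Lib.Helper14.DG33.Glue

set_option autoImplicit false

namespace Cfsg.Agent.Lib.Helper14.DG33

open Cfsg

universe u

/-- S3670 from the packages -/
theorem s3670_of (hSolv : PkgSolv) (hRaw : PkgRaw.{u}) (hIso : PkgIso.{u}) (hCDEq : PkgCDEq.{u})
    (hBwB : PkgCardBwB.{u}) (hBPT : PkgCardBPT.{u}) (hZ : PkgCardZ.{u})
    (hLin : PkgLin.{u}) (hPsi : PkgPsiChar.{u}) (hDegSum : PkgDegSum.{u})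
    (hP3 : PkgP3.{u}) (hTriv : PkgTriv.{u}) (hMack : PkgMackey.{u}) (hLL : PkgGramLL.{u})
    (hLP : PkgGramLP.{u}) (hPP : PkgGramPP.{u}) (hDegG : PkgDegG.{u}) (hPerf : PkgPerf1.{u})
    (hInd : PkgIndDeg.{u}) (h14 : PkgArith14.{u}) (h21 : PkgArith21.{u}) (h6 : PkgArith6.{u})
    (F : Type u) [Field F] [Fintype F] (hF : Fintype.card F = 9) :
    ∃ (H : Type) (_ : Group H) (_ : Fintype H), Group.IsSolvable H ∧ Nat.card H = 6048 ∧
      Cfsg.degreePrimes H = Cfsg.degreePrimes (Cfsg.PSU 3 F 3) ∧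
      Cfsg.degreeGraph H = Cfsg.degreeGraph (Cfsg.PSU 3 F 3) := by
  have hF' : Fintype.card F = 3 ^ 2 := by rw [hF]; norm_num
  obtain ⟨B, P, Z, t, w, R⟩ := hRaw F hF'
  haveI : Finite (Cfsg.Agent.Lib.Helper86.Un.UJ 3 (Cfsg.Agent.Lib.Helper45.sigmaQ hF')) :=
    inferInstance
  have D := datum_of_raw hBwB hBPT hZ _ B P Z t w R
  have hC := charOut_of hLin hPsi hDegSum hP3 hTriv hMack hLL hLP hPP hDegG hPerf hInd h14 h21 h6
    _ B P Z t w D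
  obtain ⟨e⟩ := hIso F hF'
  haveI : Finite (Cfsg.PSU 3 F 3) := Finite.of_equiv _ e.toEquiv
  have hcd := hCDEq _ (Cfsg.PSU 3 F 3) ⟨e⟩
  have hC' : CharOut (Cfsg.PSU 3 F 3) := by
    unfold CharOut at hC ⊢
    rw [← hcd]
    exact hC
  have hcard : Nat.card (Cfsg.PSU 3 F 3) = 6048 :=
    (Nat.card_congr e.toEquiv).symm.trans R.cardG
  exact final_of hSolv (Cfsg.PSU 3 F 3) hcard hC'

end Cfsg.Agent.Lib.Helper14.DG33
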