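import Mathlib
import Cfsg.Agent.Lib.Helper14.DG33.Defs
import Cfsg.Agent.Lib.Helper3.IndFun
import Cfsg.Agent.Lib.Helper75.CharInd
import Cfsg.Agent.Lib.Helper15.LinChar
import Cfsg.Agent.Lib.Helper39.CharGen

set_option autoImplicit false

namespace Cfsg.Agent.Lib.Helper14.DG33

open Cfsg

universe u

section abs

variable {H : Type u} [Group H] [Finite H] (N Z : Subgroup H)

/-- a nontrivial linear character of `N` trivial on the central subgroup `Z` with `N/Z` abelian -/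
theorem exists_mu (hcardN : Nat.card N = 27) (hcardZ : Nat.card Z = 3) (hZN : Z ≤ N)
    (Zcent : ∀ z ∈ Z, ∀ n ∈ N, z * n = n * z)
    (Ncomm : ∀ p ∈ N, ∀ q ∈ N, p * q * p⁻¹ * q⁻¹ ∈ Z) :
    ∃ μ : N →* ℂˣ, (∀ n : N, (n : H) ∈ Z → μ n = 1) ∧ ∃ n₀ : N, μ n₀ ≠ 1 := by
  classical
  haveI hnorm : (Z.subgroupOf N).Normal := by
    refine ⟨fun z hz g => ?_⟩
    rw [Subgroup.mem_subgroupOf] at hz ⊢
    have h := Zcent (z : H) hz (g : H) g.2
    have e : ((g * z * g⁻¹ : N) : H) = (z : H) := by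
      push_cast
      rw [← h, mul_assoc, mul_inv_cancel, mul_one]
    rw [e]
    exact hz
  letI : CommGroup (N ⧸ Z.subgroupOf N) :=
    { (inferInstance : Group (N ⧸ Z.subgroupOf N)) with
      mul_comm := by
        intro a b
        induction a using QuotientGroup.induction_on with
        | H a =>
        induction b using QuotientGroup.induction_on with
        | H b =>
        rw [← QuotientGroup.mk_mul, ← QuotientGroup.mk_mul]
        apply QuotientGroup.eq.2
        rw [Subgroup.mem_subgroupOf]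
        have h := Ncomm ((b : H)⁻¹) (N.inv_mem b.2) ((a : H)⁻¹) (N.inv_mem a.2)
        have e : (((a * b)⁻¹ * (b * a) : N) : H) = (b : H)⁻¹ * (a : H)⁻¹ * (b : H)⁻¹⁻¹ * (a : H)⁻¹⁻¹ := by
          push_cast
          group
        rw [e]
        exact h }
  have hcard : Nat.card (N ⧸ Z.subgroupOf N) = 9 := by
    have h := Subgroup.card_eq_card_quotient_mul_card_subgroup (Z.subgroupOf N)
    have h3 : Nat.card (Z.subgroupOf N) = 3 := by
      rw [← hcardZ]
      exact Nat.card_congr (Subgroup.subgroupOfEquivOfLe hZN).toEquiv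
    rw [hcardN, h3] at h
    omega
  haveI : Nontrivial (N ⧸ Z.subgroupOf N) := by
    rw [← Finite.one_lt_card_iff_nontrivial, hcard]
    norm_num
  obtain ⟨a, ha⟩ := exists_ne (1 : N ⧸ Z.subgroupOf N)
  obtain ⟨φ, hφ⟩ := CommGroup.exists_apply_ne_one_of_hasEnoughRootsOfUnity
    (N ⧸ Z.subgroupOf N) ℂ ha
  refine ⟨φ.comp (QuotientGroup.mk' (Z.subgroupOf N)), ?_, ?_⟩
  · intro n hn
    have : (QuotientGroup.mk' (Z.subgroupOf N)) n = 1 := by
      rw [QuotientGroup.mk'_apply, QuotientGroup.eq_one_iff, Subgroup.mem_subgroupOf]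
      exact hn
    rw [MonoidHom.comp_apply, this, map_one]
  · induction a using QuotientGroup.induction_on with
    | H n₀ => exact ⟨n₀, hφ⟩

end abs

section orbit

variable {H : Type u} [Group H] [Finite H] (N Z : Subgroup H) (t : H)

/-- the sum of `μ` over the `⟨t⟩`-orbit of an element of `N \ Z` -/
theorem orbit_sum [hN : N.Normal] (hcardN : Nat.card N = 27) (hcardZ : Nat.card Z = 3)
    (hZN : Z ≤ N) (Znorm : ∀ h : H, ∀ z ∈ Z, h * z * h⁻¹ ∈ Z)
    (tfree : ∀ k : ℕ, 0 < k → k < 8 → ∀ p ∈ N, t ^ k * p * (t ^ k)⁻¹ * p⁻¹ ∈ Z → p ∈ Z)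
    (μ : N →* ℂˣ) (hμZ : ∀ n : N, (n : H) ∈ Z → μ n = 1) (n₀ : N) (hn₀ : μ n₀ ≠ 1)
    (p : N) (hp : (p : H) ∉ Z) :
    ∑ k ∈ Finset.range 8,
      ((μ ⟨t ^ k * (p : H) * (t ^ k)⁻¹, hN.conj_mem p p.2 (t ^ k)⟩ : ℂˣ) : ℂ) = -1 := by
  classical
  haveI : Fintype N := Fintype.ofFinite N
  set cj : ℕ → N := fun k => ⟨t ^ k * (p : H) * (t ^ k)⁻¹, hN.conj_mem p p.2 (t ^ k)⟩ with hcj
  set ZN : Finset N := Finset.univ.filter (fun n : N => (n : H) ∈ Z) with hZNdef
  have hcardZN : ZN.card = 3 := by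
    have h3 : Nat.card (Z.subgroupOf N) = 3 := by
      rw [← hcardZ]
      exact Nat.card_congr (Subgroup.subgroupOfEquivOfLe hZN).toEquiv
    rw [← h3, Nat.card_eq_fintype_card, Fintype.card_subtype]
    congr 1
  have hcardNf : (Finset.univ : Finset N).card = 27 := by
    rw [Finset.card_univ, ← Nat.card_eq_fintype_card, hcardN]
  have hcardC : (Finset.univ.filter (fun n : N => ¬ (n : H) ∈ Z)).card = 24 := by
    have h := Finset.card_filter_add_card_filter_not (s := (Finset.univ : Finset N))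
      (fun n : N => (n : H) ∈ Z)
    rw [hcardNf] at h
    have : (Finset.univ.filter (fun n : N => (n : H) ∈ Z)).card = 3 := hcardZN
    omega
  -- total sum
  have htot : ∑ n : N, ((μ n : ℂˣ) : ℂ) = 0 := by
    apply Cfsg.Agent.Lib.Helper39.sum_mulfun_eq_zero (fun n : N => ((μ n : ℂˣ) : ℂ)) ?_ n₀ ?_
    · intro a b
      simp
    · intro h
      apply hn₀
      exact Units.ext (by simpa using h)
  have hsplit := Finset.sum_filter_add_sum_filter_not (Finset.univ : Finset N)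
    (fun n : N => (n : H) ∈ Z) (fun n => ((μ n : ℂˣ) : ℂ))
  rw [htot] at hsplit
  have hZsum : ∑ n ∈ Finset.univ.filter (fun n : N => (n : H) ∈ Z), ((μ n : ℂˣ) : ℂ) = 3 := by
    have : ∀ n ∈ Finset.univ.filter (fun n : N => (n : H) ∈ Z), ((μ n : ℂˣ) : ℂ) = 1 := by
      intro n hn
      rw [hμZ n (Finset.mem_filter.1 hn).2]
      rfl
    rw [Finset.sum_congr rfl this, Finset.sum_const, hcardZN]
    norm_num
  -- the key non-coincidence
  have key : ∀ k l : ℕ, l < k → k < 8 → ∀ z z' : N, (z : H) ∈ Z → (z' : H) ∈ Z →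
      cj k * z ≠ cj l * z' := by
    intro k l hlk hk z z' hz hz' heq
    have E : t ^ k * (p : H) * (t ^ k)⁻¹ * (z : H) = t ^ l * (p : H) * (t ^ l)⁻¹ * (z' : H) := by
      have := congrArg (Subtype.val : N → H) heq
      simpa [hcj] using this
    obtain ⟨j, rfl⟩ : ∃ j, k = l + j := ⟨k - l, by omega⟩
    have hkp : t ^ (l + j) = t ^ l * t ^ j := pow_add t l j
    have e1 : t ^ j * (p : H) * (t ^ j)⁻¹ =
        (p : H) * ((t ^ l)⁻¹ * ((z' : H) * (z : H)⁻¹) * (t ^ l)⁻¹⁻¹) := by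
      calc t ^ j * (p : H) * (t ^ j)⁻¹
          = (t ^ l)⁻¹ * (t ^ (l + j) * (p : H) * (t ^ (l + j))⁻¹ * (z : H)) * (z : H)⁻¹ * t ^ l := by
            rw [hkp]; group
        _ = (t ^ l)⁻¹ * (t ^ l * (p : H) * (t ^ l)⁻¹ * (z' : H)) * (z : H)⁻¹ * t ^ l := by rw [E]
        _ = (p : H) * ((t ^ l)⁻¹ * ((z' : H) * (z : H)⁻¹) * (t ^ l)⁻¹⁻¹) := by group
    have hc : (t ^ l)⁻¹ * ((z' : H) * (z : H)⁻¹) * (t ^ l)⁻¹⁻¹ ∈ Z :=
      Znorm _ _ (Z.mul_mem hz' (Z.inv_mem hz))
    have e2 : t ^ j * (p : H) * (t ^ j)⁻¹ * (p : H)⁻¹ =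
        (p : H) * ((t ^ l)⁻¹ * ((z' : H) * (z : H)⁻¹) * (t ^ l)⁻¹⁻¹) * (p : H)⁻¹ := by
      rw [e1]
    have hW : t ^ j * (p : H) * (t ^ j)⁻¹ * (p : H)⁻¹ ∈ Z := by
      rw [e2]
      exact Znorm _ _ hc
    exact hp (tfree j (by omega) (by omega) (p : H) p.2 hW)
  have hinj : Set.InjOn (fun kz : ℕ × N => cj kz.1 * kz.2)
      (↑(Finset.range 8 ×ˢ ZN) : Set (ℕ × N)) := by
    rintro ⟨k, z⟩ hkz ⟨l, z'⟩ hlz heq
    simp only [Finset.coe_product, Set.mem_prod, Finset.mem_coe, Finset.mem_range] at hkz hlz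
    have hz : (z : H) ∈ Z := (Finset.mem_filter.1 hkz.2).2
    have hz' : (z' : H) ∈ Z := (Finset.mem_filter.1 hlz.2).2
    simp only at heq
    rcases lt_trichotomy k l with h | h | h
    · exact absurd heq.symm (key l k h hlz.1 z' z hz' hz)
    · subst h
      have : z = z' := mul_left_cancel heq
      rw [this]
    · exact absurd heq (key k l h hkz.1 z z' hz hz')
  have himg : (Finset.range 8 ×ˢ ZN).image (fun kz : ℕ × N => cj kz.1 * kz.2) =
      Finset.univ.filter (fun n : N => ¬ (n : H) ∈ Z) := by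
    apply Finset.eq_of_subset_of_card_le
    · intro n hn
      obtain ⟨⟨k, z⟩, hkz, rfl⟩ := Finset.mem_image.1 hn
      have hz : (z : H) ∈ Z := (Finset.mem_filter.1 (Finset.mem_product.1 hkz).2).2
      refine Finset.mem_filter.2 ⟨Finset.mem_univ _, ?_⟩
      intro hmem
      have h1 : t ^ k * (p : H) * (t ^ k)⁻¹ ∈ Z := by
        have : ((cj k * z : N) : H) * (z : H)⁻¹ ∈ Z := Z.mul_mem hmem (Z.inv_mem hz)
        simpa [hcj] using this
      have h2 := Znorm (t ^ k)⁻¹ _ h1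
      have e : (t ^ k)⁻¹ * (t ^ k * (p : H) * (t ^ k)⁻¹) * (t ^ k)⁻¹⁻¹ = (p : H) := by group
      rw [e] at h2
      exact hp h2
    · rw [Finset.card_image_of_injOn hinj, Finset.card_product, Finset.card_range, hcardZN, hcardC]
  have hCsum : ∑ n ∈ Finset.univ.filter (fun n : N => ¬ (n : H) ∈ Z), ((μ n : ℂˣ) : ℂ) =
      3 * ∑ k ∈ Finset.range 8, ((μ (cj k) : ℂˣ) : ℂ) := by
    rw [← himg, Finset.sum_image hinj, Finset.sum_product, Finset.mul_sum]
    refine Finset.sum_congr rfl (fun k _ => ?_)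
    have : ∀ z ∈ ZN, ((μ (cj k * z) : ℂˣ) : ℂ) = ((μ (cj k) : ℂˣ) : ℂ) := by
      intro z hz
      rw [map_mul, hμZ z (Finset.mem_filter.1 hz).2, mul_one]
    rw [Finset.sum_congr rfl this, Finset.sum_const, hcardZN]
    norm_num
  rw [hZsum, hCsum] at hsplit
  have : (3 : ℂ) * (1 + ∑ k ∈ Finset.range 8, ((μ (cj k) : ℂˣ) : ℂ)) = 0 := by
    linear_combination hsplit
  have h3 : (1 : ℂ) + ∑ k ∈ Finset.range 8, ((μ (cj k) : ℂˣ) : ℂ) = 0 := by
    rcases mul_eq_zero.1 this with h | h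
    · norm_num at h
    · exact h
  linear_combination h3

end orbit

section main

variable {H : Type u} [Group H] [Fintype H] (N Z : Subgroup H) (t : H)

open Classical in
/-- the degree 8 character, abstractly -/
theorem psi_abs [hN : N.Normal] (hcardH : Nat.card H = 216) (hcardN : Nat.card N = 27)
    (hcardZ : Nat.card Z = 3) (hZN : Z ≤ N)
    (Znorm : ∀ h : H, ∀ z ∈ Z, h * z * h⁻¹ ∈ Z)
    (Zcent : ∀ z ∈ Z, ∀ n ∈ N, z * n = n * z)
    (Ncomm : ∀ p ∈ N, ∀ q ∈ N, p * q * p⁻¹ * q⁻¹ ∈ Z)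
    (tfree : ∀ k : ℕ, 0 < k → k < 8 → ∀ p ∈ N, t ^ k * p * (t ^ k)⁻¹ * p⁻¹ ∈ Z → p ∈ Z)
    (ordt : orderOf t = 8) (BPT : ∀ h : H, ∃ k : ℕ, h * t ^ k ∈ N)
    (PT : ∀ k : ℕ, t ^ k ∈ N → t ^ k = 1) :
    IsCharacter H (fun h : H => if h ∈ Z then (8 : ℂ) else if h ∈ N then -1 else 0) := by
  haveI : Fintype N := Fintype.ofFinite N
  obtain ⟨μ, hμZ, n₀, hn₀⟩ := exists_mu N Z hcardN hcardZ hZN Zcent Ncomm
  set θ : N → ℂ := fun n => ((μ n : ℂˣ) : ℂ) with hθdef
  have hθ : IsCharacter N θ := Cfsg.Agent.Lib.Helper15.isCharacter_of_hom μ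
  have hind := Cfsg.Agent.Lib.Helper75.isCharacter_indFun N hθ
  have hcN : (Nat.card N : ℂ) = 27 := by rw [hcardN]; norm_num
  have hcH : (Fintype.card H : ℂ) = 216 := by
    rw [← Nat.card_eq_fintype_card, hcardH]; norm_num
  have heq : (fun h : H => if h ∈ Z then (8 : ℂ) else if h ∈ N then -1 else 0) =
      indFun N θ := by
    funext h
    unfold indFun
    rw [hcN]
    by_cases hhN : h ∈ N
    · by_cases hhZ : h ∈ Z
      · rw [if_pos hhZ]
        have : ∀ x : H, extendByZero N θ (x⁻¹ * h * x) = 1 := by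
          intro x
          have hz : x⁻¹ * h * x ∈ Z := by
            have := Znorm x⁻¹ h hhZ
            rwa [inv_inv] at this
          rw [Cfsg.Agent.Lib.Helper3.extendByZero_of_mem N θ (hZN hz)]
          show ((μ _ : ℂˣ) : ℂ) = 1
          rw [hμZ _ hz]
          rfl
        simp only [this, Finset.sum_const, Finset.card_univ, nsmul_eq_mul, mul_one, hcH]
        norm_num
      · rw [if_neg hhZ, if_pos hhN]
        have horb := orbit_sum N Z t hcardN hcardZ hZN Znorm tfree μ hμZ n₀ hn₀ ⟨h, hhN⟩ hhZ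
        -- reindex the sum over H
        have key : ∀ k l : ℕ, l < k → k < 8 → ∀ n n' : N,
            (n : H) * (t ^ k)⁻¹ ≠ (n' : H) * (t ^ l)⁻¹ := by
          intro k l hlk hk n n' heq'
          obtain ⟨j, rfl⟩ : ∃ j, k = l + j := ⟨k - l, by omega⟩
          have hkp : t ^ (l + j) = t ^ l * t ^ j := pow_add t l j
          have e1 : t ^ j = (n' : H)⁻¹ * (n : H) := by
            calc t ^ j = (n' : H)⁻¹ * ((n' : H) * (t ^ l)⁻¹) * t ^ (l + j) := by rw [hkp]; group
              _ = (n' : H)⁻¹ * ((n : H) * (t ^ (l + j))⁻¹) * t ^ (l + j) := by rw [heq']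
              _ = (n' : H)⁻¹ * (n : H) := by group
          have h1 : t ^ j ∈ N := by
            rw [e1]
            exact N.mul_mem (N.inv_mem n'.2) n.2
          have h2 := PT j h1
          have h3 : orderOf t ∣ j := orderOf_dvd_of_pow_eq_one h2
          rw [ordt] at h3
          have : 8 ≤ j := Nat.le_of_dvd (by omega) h3
          omega
        have hinj : Set.InjOn (fun kn : ℕ × N => (kn.2 : H) * (t ^ kn.1)⁻¹)
            (↑(Finset.range 8 ×ˢ (Finset.univ : Finset N)) : Set (ℕ × N)) := by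
          rintro ⟨k, n⟩ hkn ⟨l, n'⟩ hln heq'
          simp only [Finset.coe_product, Set.mem_prod, Finset.mem_coe, Finset.mem_range] at hkn hln
          simp only at heq'
          rcases lt_trichotomy k l with hh | hh | hh
          · exact absurd heq'.symm (key l k hh hln.1 n' n)
          · subst hh
            have : (n : H) = (n' : H) := mul_right_cancel heq'
            rw [Subtype.ext this]
          · exact absurd heq' (key k l hh hkn.1 n n')
        have himg : (Finset.range 8 ×ˢ (Finset.univ : Finset N)).image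
            (fun kn : ℕ × N => (kn.2 : H) * (t ^ kn.1)⁻¹) = Finset.univ := by
          apply Finset.eq_univ_of_card
          rw [Finset.card_image_of_injOn hinj, Finset.card_product, Finset.card_range,
            Finset.card_univ, ← Nat.card_eq_fintype_card, ← Nat.card_eq_fintype_card, hcardN,
            hcardH]
        have hval : ∀ kn ∈ Finset.range 8 ×ˢ (Finset.univ : Finset N),
            extendByZero N θ (((kn.2 : H) * (t ^ kn.1)⁻¹)⁻¹ * h * ((kn.2 : H) * (t ^ kn.1)⁻¹)) =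
              ((μ ⟨t ^ kn.1 * h * (t ^ kn.1)⁻¹, hN.conj_mem h hhN (t ^ kn.1)⟩ : ℂˣ) : ℂ) := by
          rintro ⟨k, n⟩ _
          simp only
          have e : ((n : H) * (t ^ k)⁻¹)⁻¹ * h * ((n : H) * (t ^ k)⁻¹) =
              (t ^ k * (n : H) * (t ^ k)⁻¹)⁻¹ * (t ^ k * h * (t ^ k)⁻¹) *
                (t ^ k * (n : H) * (t ^ k)⁻¹) := by group
          have hm1 : t ^ k * (n : H) * (t ^ k)⁻¹ ∈ N := hN.conj_mem n n.2 (t ^ k)
          have hm2 : t ^ k * h * (t ^ k)⁻¹ ∈ N := hN.conj_mem h hhN (t ^ k)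
          have hm : (t ^ k * (n : H) * (t ^ k)⁻¹)⁻¹ * (t ^ k * h * (t ^ k)⁻¹) *
                (t ^ k * (n : H) * (t ^ k)⁻¹) ∈ N :=
            N.mul_mem (N.mul_mem (N.inv_mem hm1) hm2) hm1
          rw [e, Cfsg.Agent.Lib.Helper3.extendByZero_of_mem N θ hm]
          show ((μ _ : ℂˣ) : ℂ) = _
          have e2 : (⟨_, hm⟩ : N) = (⟨_, hm1⟩ : N)⁻¹ * ⟨_, hm2⟩ * ⟨_, hm1⟩ := rfl
          rw [e2, map_mul, map_mul, map_inv, mul_comm, ← mul_assoc, mul_inv_cancel, one_mul]
        rw [← himg, Finset.sum_image hinj, Finset.sum_congr rfl hval, Finset.sum_product]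
        have horb' : ∑ k ∈ Finset.range 8,
            ((μ ⟨t ^ k * h * (t ^ k)⁻¹, hN.conj_mem h hhN (t ^ k)⟩ : ℂˣ) : ℂ) = -1 := horb
        have hconst : ∀ k ∈ Finset.range 8, ∑ _n : N,
            ((μ ⟨t ^ k * h * (t ^ k)⁻¹, hN.conj_mem h hhN (t ^ k)⟩ : ℂˣ) : ℂ) =
            27 * ((μ ⟨t ^ k * h * (t ^ k)⁻¹, hN.conj_mem h hhN (t ^ k)⟩ : ℂˣ) : ℂ) := by
          intro k _
          rw [Finset.sum_const, Finset.card_univ, ← Nat.card_eq_fintype_card, hcardN]
          simp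
        have hfinal : ∑ k ∈ Finset.range 8, ∑ _n : N,
            ((μ ⟨t ^ k * h * (t ^ k)⁻¹, hN.conj_mem h hhN (t ^ k)⟩ : ℂˣ) : ℂ) = -27 := by
          rw [Finset.sum_congr rfl hconst, ← Finset.mul_sum, horb']
          norm_num
        refine Eq.trans ?_ (congrArg (fun s : ℂ => (27 : ℂ)⁻¹ * s) hfinal.symm)
        norm_num
    · have hhZ : h ∉ Z := fun hz => hhN (hZN hz)
      rw [if_neg hhZ, if_neg hhN]
      have : ∀ x : H, extendByZero N θ (x⁻¹ * h * x) = 0 := by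
        intro x
        apply Cfsg.Agent.Lib.Helper3.extendByZero_of_not_mem
        intro hmem
        apply hhN
        have := hN.conj_mem _ hmem x
        have e : x * (x⁻¹ * h * x) * x⁻¹ = h := by group
        rwa [e] at this
      simp [this]
  rw [heq]
  exact hind

end main

end Cfsg.Agent.Lib.Helper14.DG33
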