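import Mathlib
import Cfsg.Agent.Lib.Helper14.DG33.Defs
import Cfsg.Agent.Lib.Helper14.DG33.PsiAbs

set_option autoImplicit false

namespace Cfsg.Agent.Lib.Helper14.DG33

open Cfsg

universe u

/-- [PSICHAR] -/
theorem pkgPsiChar : PkgPsiChar.{u} := by
  intro G _ _ B P Z t w D
  classical
  haveI : Fintype B := Fintype.ofFinite B
  have R := D.raw
  have ZB : Z ≤ B := R.ZP.trans R.PB
  haveI hN : (P.subgroupOf B).Normal := by
    refine ⟨fun p hp b => ?_⟩
    rw [Subgroup.mem_subgroupOf] at hp ⊢
    have := R.Pnorm (b : G) b.2 (p : G) hp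
    simpa using this
  have h := psi_abs (H := B) (P.subgroupOf B) (Z.subgroupOf B) ⟨t, R.tB⟩ D.cardB
    (by rw [← D.cardP]; exact Nat.card_congr (Subgroup.subgroupOfEquivOfLe R.PB).toEquiv)
    (by rw [← D.cardZ]; exact Nat.card_congr (Subgroup.subgroupOfEquivOfLe ZB).toEquiv)
    (by
      intro x hx
      rw [Subgroup.mem_subgroupOf] at hx ⊢
      exact R.ZP hx)
    (by
      intro b z hz
      rw [Subgroup.mem_subgroupOf] at hz ⊢
      have := R.Znorm (b : G) b.2 (z : G) hz
      simpa using this)
    (by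
      intro z hz n hn
      rw [Subgroup.mem_subgroupOf] at hz hn
      apply Subtype.ext
      have := R.Zcent (z : G) hz (n : G) hn
      simpa using this)
    (by
      intro p hp q hq
      rw [Subgroup.mem_subgroupOf] at hp hq ⊢
      have := R.Pcomm (p : G) hp (q : G) hq
      simpa using this)
    (by
      intro k hk0 hk8 p hp hmem
      rw [Subgroup.mem_subgroupOf] at hp hmem ⊢
      apply R.tfree k hk0 hk8 (p : G) hp
      simpa using hmem)
    (by rw [Subgroup.orderOf_mk, R.ordt])
    (by
      intro b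
      obtain ⟨k, hk⟩ := R.BPT (b : G) b.2
      refine ⟨k, ?_⟩
      rw [Subgroup.mem_subgroupOf]
      simpa using hk)
    (by
      intro k hk
      rw [Subgroup.mem_subgroupOf] at hk
      apply Subtype.ext
      have := R.PT k (by simpa using hk)
      simpa using this)
  have e : (fun b : B => if b ∈ Z.subgroupOf B then (8 : ℂ) else
      if b ∈ P.subgroupOf B then -1 else 0) = psi8 B P Z := by
    funext b
    unfold psi8
    by_cases h1 : (b : G) ∈ Z <;> by_cases h2 : (b : G) ∈ P <;>
      simp [Subgroup.mem_subgroupOf, h1, h2]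
  rw [e] at h
  exact h

end Cfsg.Agent.Lib.Helper14.DG33
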