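import Mathlib
import Cfsg.Agent.Lib.Helper14.DG33.Main
import Cfsg.Agent.Lib.Helper14.DG33.PsiChar
import Cfsg.Agent.Lib.Helper14.DG33.DegG
import Cfsg.Agent.Lib.Helper4.DG33.Solv
import Cfsg.Agent.Lib.Helper10.DG33.GramLL
import Cfsg.Agent.Lib.Helper10.DG33.GramLP
import Cfsg.Agent.Lib.Helper10.DG33.GramPP
import Cfsg.Agent.Lib.Helper62.DG33.Arith14
import Cfsg.Agent.Lib.Helper62.DG33.Arith21
import Cfsg.Agent.Lib.Helper62.DG33.CardZ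
import Cfsg.Agent.Lib.Helper66.DG33.CardBPT
import Cfsg.Agent.Lib.Helper66.DG33.CardBwB
import Cfsg.Agent.Lib.Helper77.DG33.Mackey
import Cfsg.Agent.Lib.Helper77.DG33.P3
import Cfsg.Agent.Lib.Helper84.DG33.Iso
import Cfsg.Agent.Lib.Helper89.DG33.Arith6
import Cfsg.Agent.Lib.Helper90.DG33.DegSum
import Cfsg.Agent.Lib.Helper93.DG33.Lin
import Cfsg.Agent.Lib.Helper93.DG33.Perf1
import Cfsg.Agent.Lib.Helper96.DG33.CDEq
import Cfsg.Agent.Lib.Helper96.DG33.Triv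

set_option autoImplicit false

namespace Cfsg.Agent.Lib.Helper14.DG33

open Cfsg

universe u

/-- S3670 from the remaining package -/
theorem s3670_pre (hRaw : PkgRaw.{u})
    (F : Type u) [Field F] [Fintype F] (hF : Fintype.card F = 9) :
    ∃ (H : Type) (_ : Group H) (_ : Fintype H), Group.IsSolvable H ∧ Nat.card H = 6048 ∧
      Cfsg.degreePrimes H = Cfsg.degreePrimes (Cfsg.PSU 3 F 3) ∧
      Cfsg.degreeGraph H = Cfsg.degreeGraph (Cfsg.PSU 3 F 3) :=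
  s3670_of Cfsg.Agent.Lib.Helper4.DG33.pkgSolv hRaw Cfsg.Agent.Lib.Helper84.DG33.pkgIso.{u}
    Cfsg.Agent.Lib.Helper96.DG33.pkgCDEq.{u} Cfsg.Agent.Lib.Helper66.DG33.pkgCardBwB.{u}
    Cfsg.Agent.Lib.Helper66.DG33.pkgCardBPT.{u} Cfsg.Agent.Lib.Helper62.DG33.pkgCardZ.{u}
    Cfsg.Agent.Lib.Helper93.DG33.pkgLin.{u} pkgPsiChar.{u}
    Cfsg.Agent.Lib.Helper90.DG33.pkgDegSum.{u} Cfsg.Agent.Lib.Helper77.DG33.pkgP3.{u}
    Cfsg.Agent.Lib.Helper96.DG33.pkgTriv.{u} Cfsg.Agent.Lib.Helper77.DG33.pkgMackey.{u}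
    Cfsg.Agent.Lib.Helper10.DG33.pkgGramLL.{u} Cfsg.Agent.Lib.Helper10.DG33.pkgGramLP.{u}
    Cfsg.Agent.Lib.Helper10.DG33.pkgGramPP.{u} pkgDegG.{u} Cfsg.Agent.Lib.Helper93.DG33.pkgPerf1.{u}
    Cfsg.Agent.Lib.Helper93.DG33.pkgIndDeg.{u} Cfsg.Agent.Lib.Helper62.DG33.pkgArith14.{u}
    Cfsg.Agent.Lib.Helper62.DG33.pkgArith21.{u} Cfsg.Agent.Lib.Helper89.DG33.pkgArith6.{u}
    F hF

end Cfsg.Agent.Lib.Helper14.DG33
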