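import Mathlib
import Cfsg.Agent.Lib.Helper14.DG33.Final
import Cfsg.Agent.Lib.Helper19.DG33.Raw
import Cfsg.Agent.Lib.Helper19.DG33.RBPT
import Cfsg.Agent.Lib.Helper19.DG33.RPerf
import Cfsg.Agent.Lib.Helper38.DG33.RInter
import Cfsg.Agent.Lib.Helper62.DG33.RNorm
import Cfsg.Agent.Lib.Helper62.DG33.RT
import Cfsg.Agent.Lib.Helper77.DG33.RBruhat
import Cfsg.Agent.Lib.Helper10.DG33.RPZ

set_option autoImplicit false

namespace Cfsg.Agent.Lib.Helper14.DG33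

open Cfsg

universe u

/-- S3670 from the last sub-package -/
theorem s3670_pre2 (hPZ : Cfsg.Agent.Lib.Helper19.DG33.PkgRPZ.{u})
    (F : Type u) [Field F] [Fintype F] (hF : Fintype.card F = 9) :
    ∃ (H : Type) (_ : Group H) (_ : Fintype H), Group.IsSolvable H ∧ Nat.card H = 6048 ∧
      Cfsg.degreePrimes H = Cfsg.degreePrimes (Cfsg.PSU 3 F 3) ∧
      Cfsg.degreeGraph H = Cfsg.degreeGraph (Cfsg.PSU 3 F 3) :=
  s3670_pre (Cfsg.Agent.Lib.Helper19.DG33.pkgRaw_of Cfsg.Agent.Lib.Helper77.DG33.pkgRBruhat.{u}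
    Cfsg.Agent.Lib.Helper38.DG33.pkgRInter.{u} Cfsg.Agent.Lib.Helper62.DG33.pkgRNorm.{u}
    hPZ Cfsg.Agent.Lib.Helper62.DG33.pkgRT.{u} Cfsg.Agent.Lib.Helper19.DG33.pkgRBPT.{u}
    Cfsg.Agent.Lib.Helper19.DG33.pkgRPerf.{u} Cfsg.Agent.Lib.Helper84.DG33.pkgIso.{u}) F hF

/-- S3670, universe-polymorphic -/
theorem s3670 (F : Type u) [Field F] [Fintype F] (hF : Fintype.card F = 9) :
    ∃ (H : Type) (_ : Group H) (_ : Fintype H), Group.IsSolvable H ∧ Nat.card H = 6048 ∧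
      Cfsg.degreePrimes H = Cfsg.degreePrimes (Cfsg.PSU 3 F 3) ∧
      Cfsg.degreeGraph H = Cfsg.degreeGraph (Cfsg.PSU 3 F 3) :=
  s3670_pre2 Cfsg.Agent.Lib.Helper10.DG33.pkgRPZ.{u} F hF

end Cfsg.Agent.Lib.Helper14.DG33
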